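import Mathlib.Algebra.CharP.Two
import Mathlib.LinearAlgebra.Dimension.Constructions
import Mathlib.LinearAlgebra.FiniteDimensional.Lemmas
import Mathlib.RingTheory.Artinian.Module
import Mathlib.Tactic.LinearCombination
import Mathlib.Tactic.Abel

/-!
# Traces of a quaternion group on an orthogonal space of dimension 8 are nilpotent (helper940, for S5917)

`W` of dimension 8 over a field of characteristic two, `Q` a nondegenerate quadratic form with polar form `b`,
`i`, `j` isometries generating a quaternion group, `b (X v) v = μ Q v`: then `∑ g X g⁻¹` is nilpotent (`trQ_nil`).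
-/

set_option autoImplicit false

namespace Cfsg.Agent.H940.L34

variable {K V : Type*} [Field K] [AddCommGroup V] [Module K V]

/-- one step: `t` of order two on `A`, every fixed vector is a trace -/
theorem step [FiniteDimensional K V] (A : Submodule K V) (t : V →ₗ[K] V) (hA : ∀ a ∈ A, t a ∈ A)
    (ht : ∀ a ∈ A, t (t a) = a) (h2 : ∀ v : V, v + v = 0)
    (hs : ∀ w ∈ A, t w = w → ∃ y ∈ A, w = y + t y) :
    Module.finrank K A = 2 * Module.finrank K ↥(A ⊓ LinearMap.ker (LinearMap.id + t)) := by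
  let n : A →ₗ[K] A := LinearMap.id + t.restrict hA
  have hn : ∀ a : A, ((n a : A) : V) = a + t a := fun a => rfl
  have hfix : ∀ v : V, v + t v = 0 ↔ t v = v := by
    intro v
    constructor
    · intro h
      have := congrArg (fun x => v + x) h
      simp only [add_zero] at this
      rwa [← add_assoc, h2, zero_add] at this
    · intro h
      rw [h, h2]
  have hk : (LinearMap.ker n).map A.subtype = A ⊓ LinearMap.ker (LinearMap.id + t) := by
    ext v
    simp only [Submodule.mem_map, LinearMap.mem_ker, Submodule.mem_inf, LinearMap.add_apply, LinearMap.id_apply]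
    constructor
    · rintro ⟨a, ha, rfl⟩
      exact ⟨a.2, (hn a).symm.trans (congrArg Subtype.val ha)⟩
    · rintro ⟨hv, h⟩
      exact ⟨⟨v, hv⟩, Subtype.ext h, rfl⟩
  have hr : (LinearMap.range n).map A.subtype = A ⊓ LinearMap.ker (LinearMap.id + t) := by
    ext v
    simp only [Submodule.mem_map, LinearMap.mem_range, Submodule.mem_inf, LinearMap.mem_ker, LinearMap.add_apply,
      LinearMap.id_apply]
    constructor
    · rintro ⟨a, ⟨y, rfl⟩, rfl⟩
      refine ⟨(n y).2, ?_⟩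
      show (n y : V) + t (n y : V) = 0
      rw [hn, map_add, ht _ y.2]
      have : (y : V) + t y + (t y + y) = (y + y) + (t y + t y) := by abel
      rw [this, h2, h2, add_zero]
    · rintro ⟨hv, h⟩
      obtain ⟨y, hy, he⟩ := hs v hv ((hfix v).1 h)
      exact ⟨⟨v, hv⟩, ⟨⟨y, hy⟩, Subtype.ext (by rw [hn]; exact he.symm)⟩, rfl⟩
  have h1 := LinearMap.finrank_range_add_finrank_ker n
  have h3 : Module.finrank K (LinearMap.ker n) = Module.finrank K ↥(A ⊓ LinearMap.ker (LinearMap.id + t)) := by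
    rw [← hk]
    exact (LinearEquiv.finrank_eq (Submodule.equivMapOfInjective _ A.injective_subtype _))
  have h4 : Module.finrank K (LinearMap.range n) = Module.finrank K ↥(A ⊓ LinearMap.ker (LinearMap.id + t)) := by
    rw [← hr]
    exact (LinearEquiv.finrank_eq (Submodule.equivMapOfInjective _ A.injective_subtype _))
  rw [h3, h4] at h1
  omega

/-- the trace of the quaternion group `⟨i, j⟩`, `z = i ^ 2 = j ^ 2` -/
def trQ (i j z X : V →ₗ[K] V) : V →ₗ[K] V :=
  X + z ∘ₗ X ∘ₗ z + (i ∘ₗ X ∘ₗ i ∘ₗ z + i ∘ₗ z ∘ₗ X ∘ₗ i) + (j ∘ₗ X ∘ₗ j ∘ₗ z + j ∘ₗ z ∘ₗ X ∘ₗ j) +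
    (i ∘ₗ j ∘ₗ X ∘ₗ j ∘ₗ i + i ∘ₗ j ∘ₗ z ∘ₗ X ∘ₗ j ∘ₗ i ∘ₗ z)

/-- the relations of the quaternion group -/
structure Q8 (i j z : V →ₗ[K] V) : Prop where
  zz : ∀ v, z (z v) = v
  ii : ∀ v, i (i v) = z v
  jj : ∀ v, j (j v) = z v
  ji : ∀ v, j (i v) = z (i (j v))

namespace Q8

variable {i j z X : V →ₗ[K] V}

theorem zi (h : Q8 i j z) (v : V) : z (i v) = i (z v) := by rw [← h.ii, ← h.ii]
theorem zj (h : Q8 i j z) (v : V) : z (j v) = j (z v) := by rw [← h.jj, ← h.jj]
theorem ji' (h : Q8 i j z) (v : V) : j (i v) = i (j (z v)) := by rw [h.ji, h.zi, h.zj]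

theorem tr_apply (v : V) : trQ i j z X v = X v + z (X (z v)) + (i (X (i (z v))) + i (z (X (i v)))) +
    (j (X (j (z v))) + j (z (X (j v)))) + (i (j (X (j (i v)))) + i (j (z (X (j (i (z v))))))) := rfl

theorem tr_i (h : Q8 i j z) (v : V) : trQ i j z X (i v) = i (trQ i j z X v) := by
  simp only [tr_apply, map_add, h.zi, h.zj, h.ji', h.ii, h.jj, h.zz]
  abel

theorem tr_j (h : Q8 i j z) (v : V) : trQ i j z X (j v) = j (trQ i j z X v) := by
  simp only [tr_apply, map_add, h.zi, h.zj, h.ji', h.ii, h.jj, h.zz]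
  abel

theorem tr_z (h : Q8 i j z) (v : V) : trQ i j z X (z v) = z (trQ i j z X v) := by
  rw [← h.ii, h.tr_i, h.tr_i, h.ii]

theorem pow_i (h : Q8 i j z) (n : ℕ) (v : V) : (trQ i j z X ^ n) (i v) = i ((trQ i j z X ^ n) v) := by
  induction n generalizing v with
  | zero => rfl
  | succ n ih => rw [pow_succ, Module.End.mul_apply, Module.End.mul_apply, h.tr_i, ih]

theorem pow_j (h : Q8 i j z) (n : ℕ) (v : V) : (trQ i j z X ^ n) (j v) = j ((trQ i j z X ^ n) v) := by
  induction n generalizing v with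
  | zero => rfl
  | succ n ih => rw [pow_succ, Module.End.mul_apply, Module.End.mul_apply, h.tr_j, ih]

theorem pow_z (h : Q8 i j z) (n : ℕ) (v : V) : (trQ i j z X ^ n) (z v) = z ((trQ i j z X ^ n) v) := by
  rw [← h.ii, h.pow_i, h.pow_i, h.ii]

end Q8

/-- **Lemma H** -/
theorem trQ_nil [CharP K 2] [FiniteDimensional K V] (hV : Module.finrank K V = 8) {i j z X : V →ₗ[K] V} (h : Q8 i j z)
    {q : V → K} {b : V →ₗ[K] V →ₗ[K] K} (hq : ∀ v w, q (v + w) = q v + q w + b v w) (hi : ∀ v, q (i v) = q v)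
    (hj : ∀ v, q (j v) = q v) (hb : ∀ v, (∀ w, b w v = 0) → v = 0) {μ : K} (hX : ∀ v, b (X v) v = μ * q v) :
    IsNilpotent (trQ i j z X) := by
  have hK : ∀ a : K, a + a = 0 := CharTwo.add_self_eq_zero
  have h2 : ∀ v : V, v + v = 0 := fun v => by rw [← two_smul K v, CharTwo.two_eq_zero, zero_smul]
  set k := trQ i j z X with hk
  obtain ⟨N, hN⟩ := Filter.eventually_atTop.1 k.eventually_isCompl_ker_pow_range_pow
  set n := N + 1 with hn
  have hc := hN n (by omega)
  -- `k ^ (n + 1)` is bijective on the range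
  have hinj : ∀ w ∈ LinearMap.range (k ^ n), ∀ w' ∈ LinearMap.range (k ^ n), (k ^ (n + 1)) w = (k ^ (n + 1)) w' → w = w' := by
    intro w hw w' hw' he
    have h3 : (k ^ (n + 1)) (w - w') = 0 := by rw [map_sub, he, sub_self]
    have h4 : w - w' ∈ LinearMap.ker (k ^ n) := by
      obtain ⟨a, ha⟩ := (LinearMap.range (k ^ n)).sub_mem hw hw'
      have h5 : (k ^ (n + n)) (w - w') = 0 := by
        have : k ^ (n + n) = k ^ (n - 1) * k ^ (n + 1) := by rw [← pow_add]; congr 1; omega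
        rw [this, Module.End.mul_apply, h3, map_zero]
      have h6 : (k ^ n) (w - w') ∈ LinearMap.ker (k ^ n) := by
        rw [LinearMap.mem_ker, ← Module.End.mul_apply, ← pow_add]; exact h5
      have h7 : (k ^ n) (w - w') ∈ LinearMap.range (k ^ n) := ⟨_, rfl⟩
      have h8 := hc.disjoint.le_bot (⟨h6, h7⟩ : (k ^ n) (w - w') ∈ LinearMap.ker (k ^ n) ⊓ LinearMap.range (k ^ n))
      exact (Submodule.mem_bot K).1 h8
    have h5 := hc.disjoint.le_bot (⟨h4, (LinearMap.range (k ^ n)).sub_mem hw hw'⟩ :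
      w - w' ∈ LinearMap.ker (k ^ n) ⊓ LinearMap.range (k ^ n))
    exact sub_eq_zero.1 ((Submodule.mem_bot K).1 h5)
  have hst : ∀ m, ∀ w ∈ LinearMap.range (k ^ n), (k ^ m) w ∈ LinearMap.range (k ^ n) := by
    rintro m _ ⟨a, rfl⟩
    refine ⟨(k ^ m) a, ?_⟩
    rw [← Module.End.mul_apply, ← Module.End.mul_apply, ← pow_add, ← pow_add, add_comm]
  have hsur : ∀ w ∈ LinearMap.range (k ^ n), ∃ u ∈ LinearMap.range (k ^ n), (k ^ (n + 1)) u = w := by
    intro w hw
    have h3 : Function.Injective ((k ^ (n + 1)).restrict (hst (n + 1))) := by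
      intro a a' he
      exact Subtype.ext (hinj _ a.2 _ a'.2 (congrArg Subtype.val he))
    obtain ⟨u, hu⟩ := (LinearMap.injective_iff_surjective.1 h3) ⟨w, hw⟩
    exact ⟨u, u.2, congrArg Subtype.val hu⟩
  have hsi : ∀ w ∈ LinearMap.range (k ^ n), i w ∈ LinearMap.range (k ^ n) := by
    rintro _ ⟨a, rfl⟩
    exact ⟨i a, h.pow_i n a⟩
  have hsj : ∀ w ∈ LinearMap.range (k ^ n), j w ∈ LinearMap.range (k ^ n) := by
    rintro _ ⟨a, rfl⟩
    exact ⟨j a, h.pow_j n a⟩
  have hsz : ∀ w ∈ LinearMap.range (k ^ n), z w ∈ LinearMap.range (k ^ n) := by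
    rintro _ ⟨a, rfl⟩
    exact ⟨z a, h.pow_z n a⟩
  have hks : ∀ u, (k ^ (n + 1)) u = (k ^ n) (k u) := fun u => by rw [pow_succ, Module.End.mul_apply]
  -- the fixed vectors are traces
  have t1 : ∀ w ∈ LinearMap.range (k ^ n), z w = w → ∃ y ∈ LinearMap.range (k ^ n), w = y + z y := by
    intro w hw hz
    obtain ⟨u, hu, rfl⟩ := hsur w hw
    have hzu : z u = u := hinj _ (hsz u hu) _ hu (by rw [hk, h.pow_z, ← hk, hz])
    refine ⟨(k ^ n) (X u + i (X (i u)) + j (X (j u)) + i (j (X (j (i u))))), ⟨_, rfl⟩, ?_⟩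
    rw [hks, hk, ← h.pow_z, ← map_add]
    congr 1
    simp only [Q8.tr_apply, map_add, h.zi, h.zj, hzu]
    abel
  have t2 : ∀ w ∈ LinearMap.range (k ^ n), i w = w → ∃ y' ∈ LinearMap.range (k ^ n), w = (y' + z y') + i (y' + z y') := by
    intro w hw hz
    obtain ⟨u, hu, rfl⟩ := hsur w hw
    have hiu : i u = u := hinj _ (hsi u hu) _ hu (by rw [hk, h.pow_i, ← hk, hz])
    have hzu : z u = u := by rw [← h.ii, hiu, hiu]
    refine ⟨(k ^ n) (X u + j (X (j u))), ⟨_, rfl⟩, ?_⟩
    rw [hks, hk, ← h.pow_z, ← map_add, ← h.pow_i, ← map_add]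
    congr 1
    simp only [Q8.tr_apply, map_add, h.zi, h.zj, hzu, hiu]
    abel
  have t3 : ∀ w ∈ LinearMap.range (k ^ n), i w = w → j w = w → ∃ e ∈ LinearMap.range (k ^ n),
      w = (e + z e + i (e + z e)) + j (e + z e + i (e + z e)) := by
    intro w hw hz hz'
    obtain ⟨u, hu, rfl⟩ := hsur w hw
    have hiu : i u = u := hinj _ (hsi u hu) _ hu (by rw [hk, h.pow_i, ← hk, hz])
    have hju : j u = u := hinj _ (hsj u hu) _ hu (by rw [hk, h.pow_j, ← hk, hz'])
    have hzu : z u = u := by rw [← h.ii, hiu, hiu]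
    refine ⟨(k ^ n) (X u), ⟨_, rfl⟩, ?_⟩
    rw [hks, hk, ← h.pow_z, ← map_add, ← h.pow_i, ← map_add, ← h.pow_j, ← map_add]
    congr 1
    simp only [Q8.tr_apply, map_add, h.zi, h.zj, hzu, hiu, hju, h.ji', h.zz]
    abel
  have hfix : ∀ (t : V →ₗ[K] V) (v : V), v ∈ LinearMap.ker (LinearMap.id + t) ↔ t v = v := by
    intro t v
    rw [LinearMap.mem_ker, LinearMap.add_apply, LinearMap.id_apply]
    constructor
    · intro h
      have := congrArg (fun x => v + x) h
      simp only [add_zero] at this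
      rwa [← add_assoc, h2, zero_add] at this
    · intro h
      rw [h, h2]
  -- dimensions
  set A0 := LinearMap.range (k ^ n) with hA0
  have d1 := step A0 z hsz (fun a _ => h.zz a) h2 t1
  set A1 := A0 ⊓ LinearMap.ker (LinearMap.id + z) with hA1
  have m1 : ∀ v, v ∈ A1 ↔ v ∈ A0 ∧ z v = v := fun v => by rw [hA1, Submodule.mem_inf, hfix]
  have d2 := step A1 i (fun a ha => by
      rw [m1] at ha ⊢
      exact ⟨hsi a ha.1, by rw [h.zi, ha.2]⟩) (fun a ha => by rw [h.ii, ((m1 a).1 ha).2]) h2 (fun w hw hiw => by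
      obtain ⟨y', hy', he⟩ := t2 w ((m1 w).1 hw).1 hiw
      refine ⟨y' + z y', (m1 _).2 ⟨A0.add_mem hy' (hsz _ hy'), ?_⟩, he⟩
      rw [map_add, h.zz, add_comm])
  set A2 := A1 ⊓ LinearMap.ker (LinearMap.id + i) with hA2
  have m2 : ∀ v, v ∈ A2 ↔ v ∈ A0 ∧ z v = v ∧ i v = v := fun v => by
    rw [hA2, Submodule.mem_inf, hfix, m1, and_assoc]
  have d3 := step A2 j (fun a ha => by
      rw [m2] at ha ⊢
      refine ⟨hsj a ha.1, by rw [h.zj, ha.2.1], ?_⟩
      have h3 : i (j (z a)) = j (i a) := (h.ji' a).symm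
      rw [ha.2.1, ha.2.2] at h3
      exact h3) (fun a ha => by rw [h.jj, ((m2 a).1 ha).2.1]) h2 (fun w hw hjw => by
      have hw' := (m2 w).1 hw
      obtain ⟨e, he, hwe⟩ := t3 w hw'.1 hw'.2.2 hjw
      refine ⟨e + z e + i (e + z e), (m2 _).2 ⟨A0.add_mem (A0.add_mem he (hsz _ he)) (hsi _ (A0.add_mem he (hsz _ he))),
        ?_, ?_⟩, hwe⟩
      · simp only [map_add, h.zi, h.zz]
        abel
      · simp only [map_add, h.ii, h.zi, h.zz]
        abel)
  set A3 := A2 ⊓ LinearMap.ker (LinearMap.id + j) with hA3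
  have m3 : ∀ v, v ∈ A3 ↔ v ∈ A0 ∧ z v = v ∧ i v = v ∧ j v = v := fun v => by
    rw [hA3, Submodule.mem_inf, hfix, m2, and_assoc, and_assoc]
  have hdim : Module.finrank K A0 = 8 * Module.finrank K A3 := by omega
  have hle : Module.finrank K A0 ≤ 8 := by rw [← hV]; exact Submodule.finrank_le _
  by_cases h0 : Module.finrank K A3 = 0
  · rw [h0, mul_zero, Submodule.finrank_eq_zero] at hdim
    refine ⟨n, ?_⟩
    exact LinearMap.range_eq_bot.1 hdim
  exfalso
  have h1 : Module.finrank K A3 = 1 := by omega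
  have htop : A0 = ⊤ := Submodule.eq_top_of_finrank_eq (by omega)
  obtain ⟨⟨f, hf⟩, hf0, hf1⟩ := finrank_eq_one_iff'.1 h1
  have hf0' : f ≠ 0 := fun he => hf0 (Subtype.ext he)
  have hsp : ∀ v, z v = v → i v = v → j v = v → ∃ c : K, v = c • f := by
    intro v a1 a2 a3
    obtain ⟨c, hc'⟩ := hf1 ⟨v, (m3 v).2 ⟨by rw [htop]; trivial, a1, a2, a3⟩⟩
    exact ⟨c, (congrArg Subtype.val hc').symm⟩
  have hff := (m3 f).1 hf
  -- the form
  have hb1 : ∀ t : V →ₗ[K] V, (∀ v, q (t v) = q v) → ∀ v w, b (t v) (t w) = b v w := by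
    intro t ht v w
    have e1 := hq (t v) (t w)
    rw [← map_add, ht, ht, ht, hq] at e1
    exact (add_left_cancel e1).symm
  have bi := hb1 i hi
  have bj := hb1 j hj
  have hz : ∀ v, q (z v) = q v := fun v => by rw [← h.ii, hi, hi]
  have bz := hb1 z hz
  have bs : ∀ v w, b v w = b w v := by
    intro v w
    have e1 := hq v w
    have e2 := hq w v
    rw [add_comm w v, e1, add_comm (q w) (q v)] at e2
    exact add_left_cancel e2
  -- `q f = 0`
  have hqf : q f = 0 := by
    obtain ⟨e, -, he⟩ := t3 f hff.1 hff.2.2.1 hff.2.2.2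
    have e0 : ∀ v, q ((v + j v) + z (v + j v)) = 0 := by
      intro v
      rw [hq, hz, hK, zero_add]
      simp only [map_add, LinearMap.add_apply]
      have a1 : b (j v) (z (j v)) = b v (z v) := by rw [h.zj, bj]
      have a2 : b (j v) (z v) = b v (j v) := by
        rw [← bj, h.jj, ← h.zj, bz]
      have a3 : b v (z (j v)) = b v (j v) := by
        rw [← bj v (z (j v)), ← h.zj, h.jj, h.zz, bs]
      rw [a1, a2, a3]
      have : b v (z v) + b v (j v) + (b v (j v) + b v (z v)) = (b v (z v) + b v (z v)) + (b v (j v) + b v (j v)) := by ring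
      rw [this, hK, hK, add_zero]
    rw [he]
    have e1 := e0 (e + i e)
    refine Eq.trans (congrArg q ?_) e1
    simp only [map_add, h.zi, h.zj, h.ji', h.zz]
    abel
  have hkf : ∀ v, b (k v) f = 0 := by
    intro v
    have gi : ∀ w, b (i w) f = b w f := fun w => by
      conv_lhs => rw [← hff.2.2.1]
      exact bi _ _
    have gj : ∀ w, b (j w) f = b w f := fun w => by
      conv_lhs => rw [← hff.2.2.2]
      exact bj _ _
    have gz : ∀ w, b (z w) f = b w f := fun w => by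
      conv_lhs => rw [← hff.2.1]
      exact bz _ _
    set s := (v + z v + i (v + z v)) + j (v + z v + i (v + z v)) with hs
    have hsf : ∃ c : K, s = c • f := by
      apply hsp
      · rw [hs]; simp only [map_add, h.zi, h.zj, h.ji', h.zz, h.ii, h.jj]; abel
      · rw [hs]; simp only [map_add, h.zi, h.zj, h.ji', h.zz, h.ii, h.jj]; abel
      · rw [hs]; simp only [map_add, h.zi, h.zj, h.ji', h.zz, h.ii, h.jj]; abel
    obtain ⟨c, hc'⟩ := hsf
    have e1 : b (k v) f = b (X s) f := by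
      rw [hk, hs]
      simp only [Q8.tr_apply, map_add, LinearMap.add_apply, gi, gj, gz, h.zi, h.zj, h.ji']
      ring
    rw [e1, hc', map_smul, map_smul, LinearMap.smul_apply, hX, hqf, mul_zero, smul_zero]
  apply hf0'
  apply hb
  intro w
  have : w ∈ A0 := by rw [htop]; trivial
  obtain ⟨a, rfl⟩ := this
  rw [show (k ^ n) a = k ((k ^ N) a) by rw [hn, pow_succ', Module.End.mul_apply]]
  exact hkf _


end Cfsg.Agent.H940.L34
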