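import Cfsg.Agent.H633.L34.TrNil
import Cfsg.Agent.H940.L34.LemH

/-!
# Nilpotent operators commuting with a quaternion group on a free orthogonal space of dimension 8 (helper940, for S5917)

`i`, `j` isometries generating a quaternion group, `f` a vector with non-zero trace `tr f`. `TT f` : the operators `X`
commuting with `i`, `j` with `b (X v) v = 0` for all `v` and `b (X f) (tr f) = 0`.
* `nil_mem` : the nilpotent `X` commuting with `i`, `j` with `b (X v) v = μ q v` belong to `TT f`;
* `finrank_TT` : `finrank (TT f) ≤ 3`;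
* `scalar_TT` : `c • 1 ∈ TT f` only for `c = 0`.
-/

set_option autoImplicit false

namespace Cfsg.Agent.H940.L34.NZero

open Cfsg.Agent.H940.L34

variable {K V : Type*} [Field K] [CharP K 2] [AddCommGroup V] [Module K V]

/-- the trace of a vector -/
def tr (i j z : V →ₗ[K] V) (f : V) : V := f + z f + (i f + i (z f)) + (j f + j (z f)) + (j (i f) + j (i (z f)))

/-- the data -/
structure Dat (i j z : V →ₗ[K] V) (b : V →ₗ[K] V →ₗ[K] K) (q : V → K) (f : V) : Prop where
  h : Q8 i j z
  hq : ∀ v w, q (v + w) = q v + q w + b v w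
  qi : ∀ v, q (i v) = q v
  qj : ∀ v, q (j v) = q v
  hb : ∀ v, (∀ w, b w v = 0) → v = 0
  hV : Module.finrank K V = 8
  hf : tr i j z f ≠ 0

namespace Dat

variable {i j z : V →ₗ[K] V} {b : V →ₗ[K] V →ₗ[K] K} {q : V → K} {f : V}

theorem KK2 (a : K) : a + a = 0 := CharTwo.add_self_eq_zero a

theorem sym (D : Dat i j z b q f) (v w : V) : b v w = b w v := by
  have h1 := D.hq v w
  have h2 := D.hq w v
  rw [add_comm w v, h1] at h2
  linear_combination h2

theorem alt (D : Dat i j z b q f) (v : V) : b v v = 0 := by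
  have h0 : q 0 = 0 := by
    have h1 := D.hq 0 0
    rw [add_zero, map_zero, add_zero] at h1
    linear_combination -h1
  have h2 : v + v = 0 := by rw [← two_smul K v, CharTwo.two_eq_zero, zero_smul]
  have h1 := D.hq v v
  rw [h2, h0] at h1
  linear_combination -h1 - KK2 (q v)

theorem bi (D : Dat i j z b q f) (v w : V) : b (i v) (i w) = b v w := by
  have h1 := D.hq (i v) (i w)
  rw [← map_add, D.qi, D.qi, D.qi, D.hq] at h1
  linear_combination -h1

theorem bj (D : Dat i j z b q f) (v w : V) : b (j v) (j w) = b v w := by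
  have h1 := D.hq (j v) (j w)
  rw [← map_add, D.qj, D.qj, D.qj, D.hq] at h1
  linear_combination -h1

theorem bz (D : Dat i j z b q f) (v w : V) : b (z v) (z w) = b v w := by
  rw [← D.h.ii, ← D.h.ii, D.bi, D.bi]

/-- moving operators -/
theorem mz (D : Dat i j z b q f) (v w : V) : b (z v) w = b v (z w) := by rw [← D.bz (z v), D.h.zz]

theorem mi (D : Dat i j z b q f) (v w : V) : b (i v) w = b v (i (z w)) := by
  rw [← D.bi v (i (z w)), D.h.ii, D.h.zz]

theorem mj (D : Dat i j z b q f) (v w : V) : b (j v) w = b v (j (z w)) := by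
  rw [← D.bj v (j (z w)), D.h.jj, D.h.zz]

/-- spanning -/
theorem eq_zero (D : Dat i j z b q f) {v : V} (h1 : b v f = 0) (hz : b v (z f) = 0) (hi : b v (i f) = 0)
    (hiz : b v (i (z f)) = 0) (hj : b v (j f) = 0) (hjz : b v (j (z f)) = 0) (hji : b v (j (i f)) = 0)
    (hjiz : b v (j (i (z f))) = 0) : v = 0 := by
  have hi4 : ∀ x, i (i (i (i x))) = x := fun x => by rw [D.h.ii, D.h.ii, D.h.zz]
  have hjj : ∀ x, j (j x) = i (i x) := fun x => by rw [D.h.ii, D.h.jj]
  have hij : ∀ x, i (j x) = i (i (j (i x))) := fun x => by rw [D.h.ji, D.h.ii, D.h.zz]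
  have hzi : ∀ x, i (i (i x)) = i (z x) := fun x => by rw [D.h.ii x]
  have hx : Cfsg.Agent.H633.L34.nn i (Cfsg.Agent.H633.L34.al j (Cfsg.Agent.H633.L34.al i f)) ≠ 0 := by
    have h := D.hf
    intro h0
    apply h
    rw [← h0]
    simp only [Cfsg.Agent.H633.L34.nn_apply, Cfsg.Agent.H633.L34.al_apply, map_add, D.h.ii, tr, D.h.zi, D.h.zj]
    abel
  have hs := Cfsg.Agent.H633.L34.fam_span hi4 hjj hij D.hV hx
  refine D.hb v fun w => ?_
  have hw : w ∈ Submodule.span K (Set.range (Cfsg.Agent.H633.L34.fam i j f)) := by rw [hs]; trivial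
  have hle : Submodule.span K (Set.range (Cfsg.Agent.H633.L34.fam i j f)) ≤ LinearMap.ker (b v) := by
    rw [Submodule.span_le]
    rintro _ ⟨k, rfl⟩
    rw [SetLike.mem_coe, LinearMap.mem_ker]
    fin_cases k <;>
      simp [Cfsg.Agent.H633.L34.fam, Cfsg.Agent.H633.L34.nn_apply, Cfsg.Agent.H633.L34.al_apply, map_add, D.h.ii, D.h.zi,
        D.h.zj, h1, hz, hi, hiz, hj, hjz, hji, hjiz]
  rw [D.sym]
  exact hle hw

theorem tr_i (D : Dat i j z b q f) : i (tr i j z f) = tr i j z f := by
  simp only [tr, map_add, D.h.zi, D.h.zj, D.h.ji', D.h.ii, D.h.jj, D.h.zz]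
  abel

theorem tr_j (D : Dat i j z b q f) : j (tr i j z f) = tr i j z f := by
  simp only [tr, map_add, D.h.zi, D.h.zj, D.h.ji', D.h.ii, D.h.jj, D.h.zz]
  abel

theorem tr_z (D : Dat i j z b q f) : z (tr i j z f) = tr i j z f := by
  rw [← D.h.ii, D.tr_i, D.tr_i]

/-- the form of a vector with the trace -/
theorem b_tr (D : Dat i j z b q f) (v : V) : b v (tr i j z f) = b v f + b v (z f) + (b v (i f) + b v (i (z f))) +
    (b v (j f) + b v (j (z f))) + (b v (j (i f)) + b v (j (i (z f)))) := by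
  simp only [tr, map_add]

/-- `b f (g f) = b f (g⁻¹ f)` -/
theorem bf_i (D : Dat i j z b q f) : b f (i (z f)) = b f (i f) := by rw [← D.mi, D.sym]

theorem bf_j (D : Dat i j z b q f) : b f (j (z f)) = b f (j f) := by rw [← D.mj, D.sym]

theorem bf_ji (D : Dat i j z b q f) : b f (j (i (z f))) = b f (j (i f)) := by
  have h1 : b f (j (i f)) = b (i (j (f)) ) f := by
    rw [D.mi, D.mj, D.h.zi, D.h.zz]
  rw [h1, D.sym (i (j f)), D.h.ji', D.h.zz]

theorem kap (D : Dat i j z b q f) : b f (tr i j z f) = b f (z f) := by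
  rw [D.b_tr, D.alt, D.bf_i, D.bf_j, D.bf_ji]
  linear_combination KK2 (b f (i f)) + KK2 (b f (j f)) + KK2 (b f (j (i f)))

theorem b_g_tr (D : Dat i j z b q f) (v : V) : b (i v) (tr i j z f) = b v (tr i j z f) ∧
    b (j v) (tr i j z f) = b v (tr i j z f) ∧ b (z v) (tr i j z f) = b v (tr i j z f) := by
  refine ⟨?_, ?_, ?_⟩
  · rw [D.mi, D.tr_z, D.tr_i]
  · rw [D.mj, D.tr_z, D.tr_j]
  · rw [D.mz, D.tr_z]

theorem kap_ne (D : Dat i j z b q f) : b f (tr i j z f) ≠ 0 := by
  intro h0
  apply D.hf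
  have hi := fun v => (D.b_g_tr v).1
  have hj := fun v => (D.b_g_tr v).2.1
  have hz := fun v => (D.b_g_tr v).2.2
  apply D.eq_zero
  all_goals rw [D.sym]
  all_goals simp only [hi, hj, hz, h0]

/-- a vector fixed by the group -/
theorem fixed_eq (D : Dat i j z b q f) {v : V} (h1 : i v = v) (h2 : j v = v) : ∃ c : K, v = c • tr i j z f := by
  have hz : z v = v := by rw [← D.h.ii, h1, h1]
  refine ⟨b f v / b f (tr i j z f), ?_⟩
  rw [← sub_eq_zero]
  have key : ∀ u, b u v = b f v → b u (tr i j z f) = b f (tr i j z f) →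
      b (v - (b f v / b f (tr i j z f)) • tr i j z f) u = 0 := by
    intro u h3 h4
    rw [map_sub, LinearMap.sub_apply, map_smul, LinearMap.smul_apply, D.sym v, D.sym (tr i j z f), h3, h4, smul_eq_mul,
      div_mul_cancel₀ _ D.kap_ne, sub_self]
  have gi : ∀ u, b (i u) v = b u v := fun u => by rw [D.mi, hz, h1]
  have gj : ∀ u, b (j u) v = b u v := fun u => by rw [D.mj, hz, h2]
  have gz : ∀ u, b (z u) v = b u v := fun u => by rw [D.mz, hz]
  have hi := fun v => (D.b_g_tr v).1
  have hj := fun v => (D.b_g_tr v).2.1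
  have hz' := fun v => (D.b_g_tr v).2.2
  apply D.eq_zero
  all_goals apply key
  all_goals simp only [gi, gj, gz, hi, hj, hz']

end Dat

section TT

variable (i j z : V →ₗ[K] V) (b : V →ₗ[K] V →ₗ[K] K) (f : V)

/-- the space of operators -/
def TT : Submodule K (V →ₗ[K] V) where
  carrier := {X | (∀ v, X (i v) = i (X v)) ∧ (∀ v, X (j v) = j (X v)) ∧ (∀ v, b (X v) v = 0) ∧ b (X f) (tr i j z f) = 0}
  zero_mem' := by
    refine ⟨fun v => ?_, fun v => ?_, fun v => ?_, ?_⟩ <;> simp
  add_mem' := by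
    rintro X Y ⟨h1, h2, h3, h4⟩ ⟨k1, k2, k3, k4⟩
    refine ⟨fun v => ?_, fun v => ?_, fun v => ?_, ?_⟩
    · rw [LinearMap.add_apply, LinearMap.add_apply, h1, k1, map_add]
    · rw [LinearMap.add_apply, LinearMap.add_apply, h2, k2, map_add]
    · rw [LinearMap.add_apply, map_add, LinearMap.add_apply, h3, k3, add_zero]
    · rw [LinearMap.add_apply, map_add, LinearMap.add_apply, h4, k4, add_zero]
  smul_mem' := by
    rintro c X ⟨h1, h2, h3, h4⟩
    refine ⟨fun v => ?_, fun v => ?_, fun v => ?_, ?_⟩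
    · rw [LinearMap.smul_apply, LinearMap.smul_apply, h1, map_smul]
    · rw [LinearMap.smul_apply, LinearMap.smul_apply, h2, map_smul]
    · rw [LinearMap.smul_apply, map_smul, LinearMap.smul_apply, h3, smul_zero]
    · rw [LinearMap.smul_apply, map_smul, LinearMap.smul_apply, h4, smul_zero]

end TT

variable {i j z : V →ₗ[K] V} {b : V →ₗ[K] V →ₗ[K] K} {q : V → K} {f : V}

theorem mem_TT {X : V →ₗ[K] V} : X ∈ TT i j z b f ↔ (∀ v, X (i v) = i (X v)) ∧ (∀ v, X (j v) = j (X v)) ∧
    (∀ v, b (X v) v = 0) ∧ b (X f) (tr i j z f) = 0 := Iff.rfl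

/-- the polar form of `b (X v) v = μ q v` -/
theorem polar (D : Dat i j z b q f) {X : V →ₗ[K] V} {μ : K} (h : ∀ v, b (X v) v = μ * q v) (v w : V) :
    b (X v) w + b (X w) v = μ * b v w := by
  have h1 := h (v + w)
  simp only [map_add, LinearMap.add_apply] at h1
  rw [h, h, D.hq] at h1
  linear_combination h1

/-- scalars -/
theorem scalar_TT (D : Dat i j z b q f) {c : K} (h : c • (LinearMap.id : V →ₗ[K] V) ∈ TT i j z b f) : c = 0 := by
  have h1 := h.2.2.2
  rw [LinearMap.smul_apply, LinearMap.id_apply, map_smul, LinearMap.smul_apply, smul_eq_mul] at h1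
  rcases mul_eq_zero.1 h1 with h2 | h2
  · exact h2
  · exact absurd h2 D.kap_ne

/-- **the nilpotent operators** -/
theorem nil_mem (D : Dat i j z b q f) {X : V →ₗ[K] V} (hi : ∀ v, X (i v) = i (X v)) (hj : ∀ v, X (j v) = j (X v))
    {μ : K} (hX : ∀ v, b (X v) v = μ * q v) (hn : IsNilpotent X) : X ∈ TT i j z b f := by
  have hz : ∀ v, X (z v) = z (X v) := fun v => by rw [← D.h.ii, ← D.h.ii, hi, hi]
  have hp := polar D hX
  have hμ : μ = 0 := by
    have h1 := hp f (z f)
    rw [hz, D.mz, ← D.kap] at h1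
    have h2 := Dat.KK2 (b (X f) (z f))
    have h3 : μ * b f (tr i j z f) = 0 := by linear_combination h2 - h1
    rcases mul_eq_zero.1 h3 with h4 | h4
    · exact h4
    · exact absurd h4 D.kap_ne
  subst hμ
  refine ⟨hi, hj, fun v => by rw [hX, zero_mul], ?_⟩
  have h1 : i (X (tr i j z f)) = X (tr i j z f) := by rw [← hi, D.tr_i]
  have h2 : j (X (tr i j z f)) = X (tr i j z f) := by rw [← hj, D.tr_j]
  obtain ⟨c, hc⟩ := D.fixed_eq h1 h2
  have hpow : ∀ n : ℕ, (X ^ n) (tr i j z f) = c ^ n • tr i j z f := by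
    intro n
    induction n with
    | zero => simp
    | succ n ih => rw [pow_succ, Module.End.mul_apply, hc, map_smul, ih, smul_smul, pow_succ, mul_comm]
  obtain ⟨n, hn⟩ := hn
  have h3 := hpow n
  rw [hn, LinearMap.zero_apply] at h3
  have hc0 : c = 0 := by
    rcases smul_eq_zero.1 h3.symm with h4 | h4
    · rcases Nat.eq_zero_or_pos n with h5 | h5
      · subst h5
        rw [pow_zero] at h4
        exact absurd h4 one_ne_zero
      · exact (pow_eq_zero_iff h5.ne').1 h4
    · exact absurd h4 D.hf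
  have h4 := hp f (tr i j z f)
  rw [hc, hc0, zero_smul, map_zero, LinearMap.zero_apply, add_zero, zero_mul] at h4
  exact h4

/-- **the dimension** -/
theorem finrank_TT (D : Dat i j z b q f) : Module.finrank K (TT i j z b f) ≤ 3 := by
  let L : TT i j z b f →ₗ[K] (Fin 3 → K) :=
    { toFun := fun X => ![b (X.1 f) (i f), b (X.1 f) (j f), b (X.1 f) (j (i f))]
      map_add' := by
        intro X Y
        funext k
        fin_cases k <;> simp
      map_smul' := by
        intro c X
        funext k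
        fin_cases k <;> simp }
  have hL : Function.Injective L := by
    rw [injective_iff_map_eq_zero]
    rintro ⟨X, hX⟩ h0
    obtain ⟨hi, hj, ha, ht⟩ := mem_TT.1 hX
    have hz : ∀ v, X (z v) = z (X v) := fun v => by rw [← D.h.ii, ← D.h.ii, hi, hi]
    have e1 : b (X f) (i f) = 0 := congrFun h0 0
    have e2 : b (X f) (j f) = 0 := congrFun h0 1
    have e3 : b (X f) (j (i f)) = 0 := congrFun h0 2
    have hp : ∀ v w, b (X v) w = b (X w) v := by
      intro v w
      have h1 := polar D (μ := 0) (fun v => by rw [ha, zero_mul]) v w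
      linear_combination h1 - Dat.KK2 (b (X w) v)
    have e1' : b (X f) (i (z f)) = 0 := by rw [← D.mi, ← hi, hp, e1] <;> skip
    have e2' : b (X f) (j (z f)) = 0 := by rw [← D.mj, ← hj, hp, e2] <;> skip
    have e3' : b (X f) (j (i (z f))) = 0 := by
      rw [D.h.ji', D.h.zz]
      rw [hp, hi, hj, D.mi, D.mj, D.h.zi, D.h.zz, e3]
    have e4 : b (X f) f = 0 := ha f
    have e5 : b (X f) (z f) = 0 := by
      have h1 := D.b_tr (X f)
      rw [ht, e1, e2, e3, e1', e2', e3', e4] at h1
      linear_combination -h1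
    have h6 : X f = 0 := D.eq_zero e4 e5 e1 e1' e2 e2' e3 e3'
    apply Subtype.ext
    apply LinearMap.ext
    intro v
    show X v = 0
    apply D.eq_zero
    all_goals rw [hp]
    all_goals simp only [hi, hj, hz, h6, map_zero, LinearMap.zero_apply]
  calc Module.finrank K (TT i j z b f) ≤ Module.finrank K (Fin 3 → K) := LinearMap.finrank_le_finrank_of_injective hL
    _ = 3 := by simp

/-- an eigenvalue of a nilpotent operator -/
theorem eig_nil {X : V →ₗ[K] V} (hX : IsNilpotent X) {u : V} {c : K} (hu : u ≠ 0) (h : X u = c • u) : c = 0 := by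
  have hpow : ∀ n : ℕ, (X ^ n) u = c ^ n • u := by
    intro n
    induction n with
    | zero => simp
    | succ n ih => rw [pow_succ, Module.End.mul_apply, h, map_smul, ih, smul_smul, pow_succ, mul_comm]
  obtain ⟨n, hn⟩ := hX
  have h3 := hpow n
  rw [hn, LinearMap.zero_apply] at h3
  rcases smul_eq_zero.1 h3.symm with h4 | h4
  · rcases Nat.eq_zero_or_pos n with h5 | h5
    · subst h5
      rw [pow_zero] at h4
      exact absurd h4 one_ne_zero
    · exact (pow_eq_zero_iff h5.ne').1 h4
  · exact absurd h4 hu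

/-- a nilpotent operator conjugate to `X + δ` -/
theorem delta_zero [Nontrivial V] {X g : V →ₗ[K] V} (hX : IsNilpotent X) (hg : Function.Injective g) {δ : K}
    (h : ∀ v, g (X v) = X (g v) + δ • g v) : δ = 0 := by
  obtain ⟨v, hv, h0⟩ : ∃ v : V, v ≠ 0 ∧ X v = 0 := by
    by_contra hn
    push Not at hn
    obtain ⟨n, hX⟩ := hX
    obtain ⟨v, hv⟩ := exists_ne (0 : V)
    have : ∀ m : ℕ, (X ^ m) v ≠ 0 := by
      intro m
      induction m with
      | zero => simpa using hv
      | succ m ih =>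
        rw [pow_succ', Module.End.mul_apply]
        exact hn _ ih
    exact this n (by rw [hX, LinearMap.zero_apply])
  have h1 := h v
  rw [h0, map_zero] at h1
  have h2 : X (g v) = (-δ) • g v := by
    rw [neg_smul]
    exact eq_neg_of_add_eq_zero_left h1.symm
  have h3 : g v ≠ 0 := fun hh => hv (hg (by rw [hh, map_zero]))
  have := eig_nil hX h3 h2
  exact neg_eq_zero.1 this

end Cfsg.Agent.H940.L34.NZero
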