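import Cfsg.Agent.H940.L34.NZero

/-!
# Operators commuting with the quaternion group: squares (helper940, for S5917)

* `TT_sq` : `X ∈ TT f` has square zero;
* `sq_scalar` : `X` commuting with `i`, `j`, `b (X v) v = 0` for all `v`: `X ∘ X` is a scalar.
-/

set_option autoImplicit false

namespace Cfsg.Agent.H940.L34.NZero

open Cfsg.Agent.H940.L34

variable {K V : Type*} [Field K] [CharP K 2] [AddCommGroup V] [Module K V]
  {i j z : V →ₗ[K] V} {b : V →ₗ[K] V →ₗ[K] K} {q : V → K} {f : V}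

theorem add2 (K : Type*) [Field K] [CharP K 2] {V : Type*} [AddCommGroup V] [Module K V] (v : V) : v + v = 0 := by
  rw [← two_smul K v, CharTwo.two_eq_zero, zero_smul]

/-- symmetry -/
theorem self_adj (D : Dat i j z b q f) {X : V →ₗ[K] V} (ha : ∀ v, b (X v) v = 0) (v w : V) : b (X v) w = b (X w) v := by
  have h1 := polar D (μ := 0) (fun v => by rw [ha, zero_mul]) v w
  linear_combination h1 - Dat.KK2 (b (X w) v)

/-- the values on the basis -/
theorem TT_vals (D : Dat i j z b q f) {X : V →ₗ[K] V} (hX : X ∈ TT i j z b f) : b (X f) f = 0 ∧ b (X f) (z f) = 0 ∧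
    b (X f) (i (z f)) = b (X f) (i f) ∧ b (X f) (j (z f)) = b (X f) (j f) ∧
    b (X f) (j (i (z f))) = b (X f) (j (i f)) := by
  obtain ⟨hi, hj, ha, ht⟩ := mem_TT.1 hX
  have hp := self_adj D ha
  have e1 : b (X f) (i (z f)) = b (X f) (i f) := by rw [← D.mi, ← hi, hp]
  have e2 : b (X f) (j (z f)) = b (X f) (j f) := by rw [← D.mj, ← hj, hp]
  have e3 : b (X f) (j (i (z f))) = b (X f) (j (i f)) := by
    rw [D.h.ji', D.h.zz, hp, hi, hj, D.mi, D.mj, D.h.zi, D.h.zz]
  have e4 : b (X f) f = 0 := ha f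
  refine ⟨e4, ?_, e1, e2, e3⟩
  have h1 := D.b_tr (X f)
  rw [ht, e1, e2, e3, e4] at h1
  linear_combination -h1 - Dat.KK2 (b (X f) (i f)) - Dat.KK2 (b (X f) (j f)) - Dat.KK2 (b (X f) (j (i f)))

theorem TT_f (D : Dat i j z b q f) {X : V →ₗ[K] V} (hX : X ∈ TT i j z b f) : X f + z (X f) = 0 := by
  obtain ⟨e1, e2, e3, e4, e5⟩ := TT_vals D hX
  have k : ∀ u, b (X f + z (X f)) u = b (X f) u + b (X f) (z u) := fun u => by
    rw [map_add, LinearMap.add_apply, D.mz]
  have zji : ∀ u, z (j (i u)) = j (i (z u)) := fun u => by rw [D.h.zj, D.h.zi]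
  apply D.eq_zero
  · rw [k, e1, e2, add_zero]
  · rw [k, D.h.zz, e1, e2, add_zero]
  · rw [k, D.h.zi, e3, Dat.KK2]
  · rw [k, D.h.zi, D.h.zz, e3, Dat.KK2]
  · rw [k, D.h.zj, e4, Dat.KK2]
  · rw [k, D.h.zj, D.h.zz, e4, Dat.KK2]
  · rw [k, zji, e5, Dat.KK2]
  · rw [k, zji, D.h.zz, e5, Dat.KK2]

theorem TT_im (D : Dat i j z b q f) {X : V →ₗ[K] V} (hX : X ∈ TT i j z b f) (v : V) : X v + z (X v) = 0 := by
  obtain ⟨hi, hj, ha, ht⟩ := mem_TT.1 hX
  have hp := self_adj D ha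
  have hz : ∀ v, X (z v) = z (X v) := fun v => by rw [← D.h.ii, ← D.h.ii, hi, hi]
  have h0 := TT_f D hX
  have h1 : z (X f) = X f := by
    have := congrArg (fun y => X f + y) h0
    simp only [add_zero] at this
    rwa [← add_assoc, add2 K, zero_add] at this
  have k : ∀ u, b (X v + z (X v)) u = b (X u + z (X u)) v := fun u => by
    rw [map_add, LinearMap.add_apply, D.mz, hp v u, hp v (z u), map_add, LinearMap.add_apply, hz]
  apply D.eq_zero
  all_goals rw [k]
  all_goals simp only [hi, hj, hz, D.h.zi, D.h.zj, h1, D.h.zz, add2 K, map_zero, LinearMap.zero_apply]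

/-- vectors fixed by `z` -/
theorem ker_z (D : Dat i j z b q f) {u : V} (hu : u + z u = 0) : ∃ v, u = v + z v := by
  have hi4 : ∀ x, i (i (i (i x))) = x := fun x => by rw [D.h.ii, D.h.ii, D.h.zz]
  have hjj : ∀ x, j (j x) = i (i x) := fun x => by rw [D.h.ii, D.h.jj]
  have hij : ∀ x, i (j x) = i (i (j (i x))) := fun x => by rw [D.h.ji, D.h.ii, D.h.zz]
  have hx : Cfsg.Agent.H633.L34.nn i (Cfsg.Agent.H633.L34.al j (Cfsg.Agent.H633.L34.al i f)) ≠ 0 := by
    have h := D.hf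
    intro h0
    apply h
    rw [← h0]
    simp only [Cfsg.Agent.H633.L34.nn_apply, Cfsg.Agent.H633.L34.al_apply, map_add, D.h.ii, tr, D.h.zi, D.h.zj]
    abel
  have hs := Cfsg.Agent.H633.L34.fam_span hi4 hjj hij D.hV hx
  have hu' : u ∈ Submodule.span K (Set.range (Cfsg.Agent.H633.L34.fam i j f)) := by rw [hs]; trivial
  obtain ⟨c, hc⟩ := (Submodule.mem_span_range_iff_exists_fun K).1 hu'
  simp only [Fin.sum_univ_eight, Cfsg.Agent.H633.L34.fam] at hc
  have hc' : c 0 • f + c 1 • Cfsg.Agent.H633.L34.al i f + c 2 • Cfsg.Agent.H633.L34.al j f +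
      c 3 • Cfsg.Agent.H633.L34.al j (Cfsg.Agent.H633.L34.al i f) + c 4 • Cfsg.Agent.H633.L34.nn i f +
      c 5 • Cfsg.Agent.H633.L34.nn i (Cfsg.Agent.H633.L34.al i f) +
      c 6 • Cfsg.Agent.H633.L34.nn i (Cfsg.Agent.H633.L34.al j f) +
      c 7 • Cfsg.Agent.H633.L34.nn i (Cfsg.Agent.H633.L34.al j (Cfsg.Agent.H633.L34.al i f)) = u := hc
  have h1 : Cfsg.Agent.H633.L34.nn i u = 0 := by
    rw [Cfsg.Agent.H633.L34.nn_apply, D.h.ii, hu]
  have nnn := Cfsg.Agent.H633.L34.nn_nn hi4 hjj hij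
  have h2 : c 0 • Cfsg.Agent.H633.L34.nn i f + c 1 • Cfsg.Agent.H633.L34.nn i (Cfsg.Agent.H633.L34.al i f) +
      c 2 • Cfsg.Agent.H633.L34.nn i (Cfsg.Agent.H633.L34.al j f) +
      c 3 • Cfsg.Agent.H633.L34.nn i (Cfsg.Agent.H633.L34.al j (Cfsg.Agent.H633.L34.al i f)) = 0 := by
    rw [← hc'] at h1
    simpa only [map_add, map_smul, nnn, smul_zero, add_zero] using h1
  obtain ⟨a0, a1, a2, a3⟩ := Cfsg.Agent.H633.L34.ind4 hi4 hjj hij hx h2
  rw [a0, a1, a2, a3, zero_smul, zero_smul, zero_smul, zero_smul, add_zero, add_zero, add_zero, zero_add] at hc'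
  refine ⟨c 4 • f + c 5 • Cfsg.Agent.H633.L34.al i f + c 6 • Cfsg.Agent.H633.L34.al j f +
    c 7 • Cfsg.Agent.H633.L34.al j (Cfsg.Agent.H633.L34.al i f), ?_⟩
  rw [← D.h.ii, ← Cfsg.Agent.H633.L34.nn_apply, map_add, map_add, map_add, map_smul, map_smul, map_smul, map_smul]
  exact hc'.symm

/-- **the elements of `TT f` have square zero** -/
theorem TT_sq (D : Dat i j z b q f) {X : V →ₗ[K] V} (hX : X ∈ TT i j z b f) (v : V) : X (X v) = 0 := by
  obtain ⟨hi, hj, ha, ht⟩ := mem_TT.1 hX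
  have hz : ∀ v, X (z v) = z (X v) := fun v => by rw [← D.h.ii, ← D.h.ii, hi, hi]
  obtain ⟨u, hu⟩ := ker_z D (TT_im D hX v)
  rw [hu, map_add, hz, TT_im D hX u]

/-- **an infinitesimal isometry commuting with the group: the square is a scalar** -/
theorem sq_scalar (D : Dat i j z b q f) {X : V →ₗ[K] V} (hi : ∀ v, X (i v) = i (X v)) (hj : ∀ v, X (j v) = j (X v))
    (ha : ∀ v, b (X v) v = 0) : ∃ c : K, ∀ v, X (X v) = c ^ 2 • v := by
  have h1 : i (X (tr i j z f)) = X (tr i j z f) := by rw [← hi, D.tr_i]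
  have h2 : j (X (tr i j z f)) = X (tr i j z f) := by rw [← hj, D.tr_j]
  obtain ⟨c, hc⟩ := D.fixed_eq h1 h2
  refine ⟨c, ?_⟩
  have hY : X + c • LinearMap.id ∈ TT i j z b f := by
    refine ⟨fun v => ?_, fun v => ?_, fun v => ?_, ?_⟩
    · rw [LinearMap.add_apply, LinearMap.add_apply, hi, LinearMap.smul_apply, LinearMap.smul_apply, map_add, map_smul]
      rfl
    · rw [LinearMap.add_apply, LinearMap.add_apply, hj, LinearMap.smul_apply, LinearMap.smul_apply, map_add, map_smul]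
      rfl
    · rw [LinearMap.add_apply, map_add, LinearMap.add_apply, ha, LinearMap.smul_apply, LinearMap.id_apply, map_smul,
        LinearMap.smul_apply, D.alt, smul_zero, add_zero]
    · rw [LinearMap.add_apply, map_add, LinearMap.add_apply, self_adj D ha, hc, LinearMap.smul_apply, LinearMap.id_apply,
        map_smul, LinearMap.smul_apply, map_smul, LinearMap.smul_apply, D.sym (tr i j z f), Dat.KK2]
  intro v
  have h3 := TT_sq D hY v
  simp only [LinearMap.add_apply, LinearMap.smul_apply, LinearMap.id_apply, map_add, map_smul, smul_add, smul_smul] at h3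
  have h4 : X (X v) + c • X v + (c • X v + (c * c) • v) = (X (X v) + c ^ 2 • v) + (c • X v + c • X v) := by
    rw [pow_two]; abel
  rw [h4, add2 K, add_zero] at h3
  have h5 := congrArg (fun y => y + c ^ 2 • v) h3
  simp only [zero_add] at h5
  rwa [add_assoc, add2 K, add_zero] at h5

end Cfsg.Agent.H940.L34.NZero
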