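import Cfsg.Agent.H940.L34.NZeroB
import Cfsg.Agent.H544.L34.Q8Lin
import Cfsg.Agent.H633.L34.Psi

/-!
# Squares of the fixed elements of `D` (helper940, for S5917, row (ii'))

* `exists_tr` : `1 + z` of rank 4 on a space of dimension 8: there is a vector with non-zero trace;
* `scal_sq` : in the situation of helper633's bridge, `x ∈ D` fixed by `i`, `j`: `rho x ∘ rho x` is a scalar.
-/

set_option autoImplicit false

namespace Cfsg.Agent.H940.L34.NZero

open Cfsg.Agent.H940.L34 Cfsg.Agent.H633.L34.Psi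

section

variable {K V : Type*} [Field K] [CharP K 2] [IsAlgClosed K] [AddCommGroup V] [Module K V] {i j z : V →ₗ[K] V}

theorem exists_tr (h : Q8 i j z) (hV : Module.finrank K V = 8)
    (hr : Module.finrank K (LinearMap.range (z + 1 : V →ₗ[K] V)) = 4) : ∃ f, tr i j z f ≠ 0 := by
  have : FiniteDimensional K V := FiniteDimensional.of_finrank_pos (by rw [hV]; norm_num)
  by_contra hcon
  push Not at hcon
  have hQ : Cfsg.Agent.H544.L34.Quat (K := K) i j z :=
    ⟨h.ii, h.jj, h.zz, fun x => by rw [h.ji, h.zz]⟩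
  have hle : LinearMap.range (z + 1 : V →ₗ[K] V) ≤ LinearMap.ker (z + 1 : V →ₗ[K] V) := by
    rintro _ ⟨x, rfl⟩
    rw [LinearMap.mem_ker]
    simp only [LinearMap.add_apply, Module.End.one_apply, map_add, h.zz]
    rw [show x + z x + (z x + x) = (x + x) + (z x + z x) by abel, add2 K, add2 K, add_zero]
  have h1 := LinearMap.finrank_range_add_finrank_ker (z + 1 : V →ₗ[K] V)
  have heq : LinearMap.range (z + 1 : V →ₗ[K] V) = LinearMap.ker (z + 1 : V →ₗ[K] V) :=
    Submodule.eq_of_le_of_finrank_le hle (by omega)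
  have key : ∀ x : V, x = 0 := fun x => Cfsg.Agent.H544.L34.choui hQ.abc (fun y => by
    rw [← hcon y]
    simp only [LinearMap.add_apply, Module.End.one_apply, map_add, tr, h.ji', h.zi, h.zj, h.zz]
    abel) (fun y hy => by
    have h2 : y ∈ LinearMap.ker (z + 1 : V →ₗ[K] V) := by
      rw [LinearMap.mem_ker, LinearMap.add_apply, Module.End.one_apply, add_comm]
      exact hy
    rw [← heq] at h2
    obtain ⟨u, hu⟩ := h2
    refine ⟨u, ?_⟩
    rw [← hu, LinearMap.add_apply, LinearMap.add_apply, Module.End.one_apply, add_comm]) x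
  have hnt : Nontrivial V := Module.nontrivial_of_finrank_pos (R := K) (by rw [hV]; norm_num)
  obtain ⟨x, hx⟩ := exists_ne (0 : V)
  exact hx (key x)

end

section

variable {K : Type*} [Field K] [CharP K 2] [IsAlgClosed K] {L M : Type*} [AddCommGroup L] [Module K L] [AddCommGroup M]
  [Module K M] {L0 D : Submodule K L} {rho : L →ₗ[K] M →ₗ[K] M} {b : M →ₗ[K] M →ₗ[K] K} {Q : M → K} {c : L → K}
  {nw : Fin 8 → Fin 8} {lam : Fin 8 → L → K}

/-- the data of `NZero` -/
theorem dat (hV : Module.finrank K M = 8) (B : Blk L0 D rho b Q c nw lam) {pi pj : M →ₗ[K] M}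
    (h : Q8 pi pj (pi ∘ₗ pi)) (qi : ∀ v, Q (pi v) = Q v) (qj : ∀ v, Q (pj v) = Q v)
    (hr : Module.finrank K (LinearMap.range (pi ∘ₗ pi + 1 : M →ₗ[K] M)) = 4) : ∃ f, Dat pi pj (pi ∘ₗ pi) b Q f := by
  obtain ⟨f, hf⟩ := exists_tr h hV hr
  exact ⟨f, h, B.pol, qi, qj, fun v hv => B.nd v hv, hV, hf⟩

theorem c_zero (hV : Module.finrank K M = 8) (B : Blk L0 D rho b Q c nw lam) {x : L} (hx : x ∈ D) : c x = 0 := by
  have hnt : Nontrivial M := Module.nontrivial_of_finrank_pos (R := K) (by rw [hV]; norm_num)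
  obtain ⟨u, hu⟩ := exists_ne (0 : M)
  obtain ⟨w, hw⟩ : ∃ w, b w u ≠ 0 := by
    by_contra hcon
    push Not at hcon
    exact hu (B.nd u hcon)
  have h1 := B.hc x (B.DL hx) (w + u)
  rw [B.pol] at h1
  simp only [map_add, LinearMap.add_apply] at h1
  rw [B.hc x (B.DL hx), B.hc x (B.DL hx), B.inv x hx w u, B.sym w (rho x u)] at h1
  have h2 := Dat.KK2 (b (rho x u) w)
  have h3 : c x * b w u = 0 := by linear_combination h2 - h1
  rcases mul_eq_zero.1 h3 with h4 | h4
  · exact h4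
  · exact absurd h4 hw

/-- **the square is a scalar** -/
theorem scal_sq (hV : Module.finrank K M = 8) (B : Blk L0 D rho b Q c nw lam) {i j : L → L} {si sj : Fin 8 → Fin 8}
    {pi pj : M →ₗ[K] M} (h : Q8 pi pj (pi ∘ₗ pi)) (qi : ∀ v, Q (pi v) = Q v) (qj : ∀ v, Q (pj v) = Q v)
    (Fi : Fam L0 rho lam i si pi) (Fj : Fam L0 rho lam j sj pj)
    (hr : Module.finrank K (LinearMap.range (pi ∘ₗ pi + 1 : M →ₗ[K] M)) = 4) {x : L} (hx : x ∈ D) (hi : i x = x)
    (hj : j x = x) : ∃ a : K, ∀ v, rho x (rho x v) = a • v := by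
  obtain ⟨f, D'⟩ := dat hV B h qi qj hr
  have key : ∀ (g : L → L) (sg : Fin 8 → Fin 8) (p : M →ₗ[K] M), Fam L0 rho lam g sg p → g x = x →
      ∀ v, rho x (p v) = p (rho x v) := by
    intro g sg p F hg v
    have h1 := F 0 x (B.DL hx) v
    rw [hg] at h1
    change rho x (p v) = p (rho x v) + (lam 0 x + lam (sg 0) (g x)) • p v at h1
    rw [hg, B.lamD 0 x hx, B.lamD (sg 0) x hx, add_zero, zero_smul, add_zero] at h1
    exact h1
  obtain ⟨a, ha⟩ := sq_scalar D' (X := rho x) (key i si pi Fi hi) (key j sj pj Fj hj) (fun v => by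
    rw [B.hc x (B.DL hx), c_zero hV B hx, zero_mul])
  exact ⟨a ^ 2, ha⟩

end

end Cfsg.Agent.H940.L34.NZero
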